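import Mathlib
import Cfsg.Agent.Lib.Helper49.RUW.Defs

/-!
# Project RUW: shared infrastructure for the packages [TOWER] and [DIH]

`Z i = upperCentralSeries T i` with `|Z 1| = 2`, `|Z 2| = 4`, `|Z 3| = 8`; generators
`x₁, x₂, x₃`; the maps `t ↦ cg t x₂ ∈ Z 1`, `t ↦ cg t x₃ ∈ Z 2`.
-/

set_option autoImplicit false

namespace Cfsg.Agent.Lib.Helper57.RUW

open Cfsg.Agent.Lib.Helper49.RUW

universe u

variable {T : Type u} [Group T]

theorem cg_one_left (x : T) : cg 1 x = 1 := by simp [cg]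

theorem cg_eq_one_iff {g x : T} : cg g x = 1 ↔ g * x = x * g := by
  unfold cg
  constructor
  · intro h
    have h1 : g * x * g⁻¹ = x := by
      have := congrArg (fun y => x * y) h
      simpa [mul_assoc] using this
    calc g * x = g * x * g⁻¹ * g := by group
      _ = x * g := by rw [h1]
  · intro h
    rw [h]; group

theorem conj_eq_mul_cg (g x : T) : g * x * g⁻¹ = x * cg g x := by
  unfold cg; group

/-- `cg` is multiplicative in the first variable when `a` commutes with `cg b x`. -/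
theorem cg_mul {a b x : T} (h : a * cg b x = cg b x * a) :
    cg (a * b) x = cg a x * cg b x := by
  have h' : cg b x * a⁻¹ = a⁻¹ * cg b x := by
    calc cg b x * a⁻¹ = a⁻¹ * (a * cg b x) * a⁻¹ := by group
      _ = a⁻¹ * (cg b x * a) * a⁻¹ := by rw [h]
      _ = a⁻¹ * cg b x := by group
  calc cg (a * b) x = x⁻¹ * (a * (b * x * b⁻¹) * a⁻¹) := by unfold cg; group
    _ = x⁻¹ * (a * (x * cg b x) * a⁻¹) := by rw [conj_eq_mul_cg b x]
    _ = x⁻¹ * (a * x) * (cg b x * a⁻¹) := by group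
    _ = x⁻¹ * (a * x) * (a⁻¹ * cg b x) := by rw [h']
    _ = cg a x * cg b x := by unfold cg; group

/-- inverse formula when `a⁻¹` commutes with `cg a x`. -/
theorem cg_inv {a x : T} (h : a * cg a x = cg a x * a) : cg a⁻¹ x = (cg a x)⁻¹ := by
  have h' : a⁻¹ * cg a x = cg a x * a⁻¹ := by
    calc a⁻¹ * cg a x = a⁻¹ * (cg a x * a) * a⁻¹ := by group
      _ = a⁻¹ * (a * cg a x) * a⁻¹ := by rw [h]
      _ = cg a x * a⁻¹ := by group
  have h1 := cg_mul (a := a⁻¹) (b := a) (x := x) h'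
  rw [inv_mul_cancel, cg_one_left] at h1
  exact eq_inv_of_mul_eq_one_left h1.symm

theorem cg_inv_mul_eq_one {s t x : T} (h : cg s x = cg t x) : cg (s⁻¹ * t) x = 1 := by
  unfold cg at h ⊢
  have h1 : s * x * s⁻¹ = t * x * t⁻¹ := mul_left_cancel h
  calc x⁻¹ * (s⁻¹ * t * x * (s⁻¹ * t)⁻¹) = x⁻¹ * (s⁻¹ * (t * x * t⁻¹) * s) := by group
    _ = x⁻¹ * (s⁻¹ * (s * x * s⁻¹) * s) := by rw [h1]
    _ = 1 := by group

/-- index-two lemma: `H ≤ K`, `|K| = 2 |H|`. -/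
theorem idx2 [Finite T] {H K : Subgroup T} (hHK : H ≤ K)
    (hc : Nat.card K = 2 * Nat.card H) :
    ∃ x ∈ K, x ∉ H ∧ ∀ u ∈ K, ∀ v ∈ K, u ∉ H → v ∉ H → u * v⁻¹ ∈ H := by
  have hpos : 0 < Nat.card H := Nat.card_pos
  have h2 : (H.subgroupOf K).index = 2 := by
    have h1 := Subgroup.card_mul_index (H.subgroupOf K)
    have h3 : Nat.card (H.subgroupOf K) = Nat.card H :=
      Nat.card_congr (Subgroup.subgroupOfEquivOfLe hHK).toEquiv
    rw [h3, hc] at h1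
    have h4 : Nat.card H * (H.subgroupOf K).index = Nat.card H * 2 := by rw [h1]; ring
    exact Nat.eq_of_mul_eq_mul_left hpos h4
  have hx : ∃ x ∈ K, x ∉ H := by
    by_contra hcon
    push Not at hcon
    have hKH : K = H := le_antisymm hcon hHK
    rw [hKH] at hc
    omega
  obtain ⟨x, hxK, hxH⟩ := hx
  refine ⟨x, hxK, hxH, ?_⟩
  intro u hu v hv huH hvH
  have key := Subgroup.mul_mem_iff_of_index_two h2 (a := (⟨u, hu⟩ : K))
    (b := (⟨v⁻¹, K.inv_mem hv⟩ : K))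
  have hmem : ∀ y : K, y ∈ H.subgroupOf K ↔ (y : T) ∈ H := fun y => Subgroup.mem_subgroupOf
  rw [hmem, hmem, hmem] at key
  apply key.mpr
  constructor
  · intro h; exact absurd h huH
  · intro h
    exfalso
    apply hvH
    have := H.inv_mem h
    simpa using this

/-- representatives for a step of "index at most two". -/
theorem rep_of_I2 {H K : Subgroup T}
    (h : ∀ a ∈ K, ∀ b ∈ K, a ∉ H → b ∉ H → a * b⁻¹ ∈ H) :
    ∃ g ∈ K, g * g ∈ H ∧ ∀ a ∈ K, a ∈ H ∨ a * g⁻¹ ∈ H := by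
  by_cases hex : ∃ g ∈ K, g ∉ H
  · obtain ⟨g, hgK, hgH⟩ := hex
    refine ⟨g, hgK, ?_, ?_⟩
    · have hgi : g⁻¹ ∉ H := fun hh => hgH (by simpa using H.inv_mem hh)
      have := h g hgK g⁻¹ (K.inv_mem hgK) hgH hgi
      simpa using this
    · intro a ha
      by_cases haH : a ∈ H
      · exact Or.inl haH
      · exact Or.inr (h a ha g hgK haH hgH)
  · push Not at hex
    exact ⟨1, K.one_mem, by simpa using H.one_mem, fun a ha => Or.inl (hex a ha)⟩

/-- index bound from a separating map. -/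
theorem index_le_of_sep (W : Subgroup T) {β : Type*} [Finite β] (f : T → β)
    (h : ∀ s t, f s = f t → s⁻¹ * t ∈ W) : W.index ≤ Nat.card β := by
  have hinj : Function.Injective (fun q : T ⧸ W => f q.out) := by
    intro q q' hq
    have h1 := h _ _ hq
    have h2 : ((q.out : T) : T ⧸ W) = ((q'.out : T) : T ⧸ W) := QuotientGroup.eq.mpr h1
    rwa [QuotientGroup.out_eq', QuotientGroup.out_eq'] at h2
  exact Nat.card_le_card_of_injective _ hinj

/-- surjectivity of a separating map when the cardinalities match. -/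
theorem exists_of_sep (W : Subgroup T) {β : Type*} [Finite β] (f : T → β)
    (h : ∀ s t, f s = f t → s⁻¹ * t ∈ W) (hc : Nat.card β ≤ W.index) (y : β) :
    ∃ t, f t = y := by
  have hinj : Function.Injective (fun q : T ⧸ W => f q.out) := by
    intro q q' hq
    have h1 := h _ _ hq
    have h2 : ((q.out : T) : T ⧸ W) = ((q'.out : T) : T ⧸ W) := QuotientGroup.eq.mpr h1
    rwa [QuotientGroup.out_eq', QuotientGroup.out_eq'] at h2
  have hbij := Function.Injective.bijective_of_nat_card_le hinj hc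
  obtain ⟨q, hq⟩ := hbij.2 y
  exact ⟨q.out, hq⟩

/-- The data `x₁, x₂, x₃` for a group with `|Z 1| = 2`, `|Z 2| = 4`, `|Z 3| = 8`. -/
structure Gens (T : Type u) [Group T] (x₁ x₂ x₃ : T) : Prop where
  m1 : x₁ ∈ Subgroup.upperCentralSeries T 1
  ne1 : x₁ ≠ 1
  all1 : ∀ u ∈ Subgroup.upperCentralSeries T 1, u = 1 ∨ u = x₁
  m2 : x₂ ∈ Subgroup.upperCentralSeries T 2
  n2 : x₂ ∉ Subgroup.upperCentralSeries T 1
  all2 : ∀ u ∈ Subgroup.upperCentralSeries T 2, ∀ v ∈ Subgroup.upperCentralSeries T 2,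
    u ∉ Subgroup.upperCentralSeries T 1 → v ∉ Subgroup.upperCentralSeries T 1 →
    u * v⁻¹ ∈ Subgroup.upperCentralSeries T 1
  m3 : x₃ ∈ Subgroup.upperCentralSeries T 3
  n3 : x₃ ∉ Subgroup.upperCentralSeries T 2
  all3 : ∀ u ∈ Subgroup.upperCentralSeries T 3, ∀ v ∈ Subgroup.upperCentralSeries T 3,
    u ∉ Subgroup.upperCentralSeries T 2 → v ∉ Subgroup.upperCentralSeries T 2 →
    u * v⁻¹ ∈ Subgroup.upperCentralSeries T 2
  comm2 : ∀ u ∈ Subgroup.upperCentralSeries T 2, ∀ v ∈ Subgroup.upperCentralSeries T 2,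
    u * v = v * u

theorem exists_gens [Finite T]
    (c1 : Nat.card ↥(Subgroup.upperCentralSeries T 1) = 2)
    (c2 : Nat.card ↥(Subgroup.upperCentralSeries T 2) = 4)
    (c3 : Nat.card ↥(Subgroup.upperCentralSeries T 3) = 8) :
    ∃ x₁ x₂ x₃ : T, Gens T x₁ x₂ x₃ := by
  have h01 : (⊥ : Subgroup T) ≤ Subgroup.upperCentralSeries T 1 := bot_le
  have h12 : Subgroup.upperCentralSeries T 1 ≤ Subgroup.upperCentralSeries T 2 :=
    Subgroup.upperCentralSeries_mono T (by norm_num)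
  have h23 : Subgroup.upperCentralSeries T 2 ≤ Subgroup.upperCentralSeries T 3 :=
    Subgroup.upperCentralSeries_mono T (by norm_num)
  obtain ⟨x₁, hx1, hx1n, hall1⟩ := idx2 h01 (by rw [c1, Subgroup.card_bot])
  obtain ⟨x₂, hx2, hx2n, hall2⟩ := idx2 h12 (by rw [c1, c2])
  obtain ⟨x₃, hx3, hx3n, hall3⟩ := idx2 h23 (by rw [c2, c3])
  have hx1ne : x₁ ≠ 1 := fun h => hx1n (by rw [h]; exact Subgroup.one_mem _)
  refine ⟨x₁, x₂, x₃, hx1, hx1ne, ?_, hx2, hx2n, hall2, hx3, hx3n, hall3, ?_⟩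
  · intro u hu
    by_cases hu1 : u = 1
    · exact Or.inl hu1
    · right
      have hun : u ∉ (⊥ : Subgroup T) := fun h => hu1 (Subgroup.mem_bot.mp h)
      have := hall1 u hu x₁ hx1 hun hx1n
      rw [Subgroup.mem_bot] at this
      exact mul_inv_eq_one.mp this
  · intro u hu v hv
    haveI : Fact (Nat.Prime 2) := ⟨Nat.prime_two⟩
    have hcomm := IsPGroup.commutative_of_card_eq_prime_sq (p := 2)
      (G := ↥(Subgroup.upperCentralSeries T 2)) (by rw [c2]; norm_num)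
    have := hcomm ⟨u, hu⟩ ⟨v, hv⟩
    exact congrArg Subtype.val this

namespace Gens

variable {x₁ x₂ x₃ : T} (D : Gens T x₁ x₂ x₃)
include D

theorem central1 {u : T} (hu : u ∈ Subgroup.upperCentralSeries T 1) (t : T) : t * u = u * t := by
  rw [Subgroup.upperCentralSeries_one] at hu
  exact (Subgroup.mem_center_iff.mp hu t)

theorem x1_central (t : T) : t * x₁ = x₁ * t := D.central1 D.m1 t

theorem le12 : Subgroup.upperCentralSeries T 1 ≤ Subgroup.upperCentralSeries T 2 :=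
  Subgroup.upperCentralSeries_mono T (by norm_num)

theorem le23 : Subgroup.upperCentralSeries T 2 ≤ Subgroup.upperCentralSeries T 3 :=
  Subgroup.upperCentralSeries_mono T (by norm_num)

theorem cg_mem_succ {n : ℕ} {x : T} (hx : x ∈ Subgroup.upperCentralSeries T (n + 1)) (t : T) :
    cg t x ∈ Subgroup.upperCentralSeries T n := by
  have h := (Subgroup.mem_upperCentralSeries_succ_iff.mp
    ((Subgroup.upperCentralSeries T (n + 1)).inv_mem hx)) t
  have he : cg t x = x⁻¹ * t * x⁻¹⁻¹ * t⁻¹ := by unfold cg; group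
  rw [he]; exact h

theorem cg2_mem (t : T) : cg t x₂ ∈ Subgroup.upperCentralSeries T 1 := D.cg_mem_succ D.m2 t

theorem cg3_mem (t : T) : cg t x₃ ∈ Subgroup.upperCentralSeries T 2 := D.cg_mem_succ D.m3 t

theorem cg2_mul (s t : T) : cg (s * t) x₂ = cg s x₂ * cg t x₂ :=
  cg_mul (D.central1 (D.cg2_mem t) s)

theorem cg2_inv (t : T) : cg t⁻¹ x₂ = (cg t x₂)⁻¹ :=
  cg_inv (D.central1 (D.cg2_mem t) t)

/-- membership in `A = C_T(Z 2)`. -/
theorem mem_A_iff {t : T} :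
    t ∈ Subgroup.centralizer ((Subgroup.upperCentralSeries T 2 : Subgroup T) : Set T) ↔
      cg t x₂ = 1 := by
  rw [Subgroup.mem_centralizer_iff, cg_eq_one_iff]
  constructor
  · intro h; exact (h x₂ D.m2).symm
  · intro h u hu
    by_cases hu1 : u ∈ Subgroup.upperCentralSeries T 1
    · exact (D.central1 hu1 t).symm
    · have hv : x₂ * u⁻¹ ∈ Subgroup.upperCentralSeries T 1 := D.all2 x₂ D.m2 u hu D.n2 hu1
      have hv' : t * (x₂ * u⁻¹) = (x₂ * u⁻¹) * t := D.central1 hv t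
      -- u = (x₂ * u⁻¹)⁻¹ * x₂
      have hu' : u = (x₂ * u⁻¹)⁻¹ * x₂ := by group
      have hvi : t * (x₂ * u⁻¹)⁻¹ = (x₂ * u⁻¹)⁻¹ * t := by
        calc t * (x₂ * u⁻¹)⁻¹ = (x₂ * u⁻¹)⁻¹ * ((x₂ * u⁻¹) * t) * (x₂ * u⁻¹)⁻¹ := by group
          _ = (x₂ * u⁻¹)⁻¹ * (t * (x₂ * u⁻¹)) * (x₂ * u⁻¹)⁻¹ := by rw [hv']
          _ = (x₂ * u⁻¹)⁻¹ * t := by group
      calc u * t = (x₂ * u⁻¹)⁻¹ * x₂ * t := by rw [← hu']
        _ = (x₂ * u⁻¹)⁻¹ * (x₂ * t) := by group
        _ = (x₂ * u⁻¹)⁻¹ * (t * x₂) := by rw [h]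
        _ = ((x₂ * u⁻¹)⁻¹ * t) * x₂ := by group
        _ = (t * (x₂ * u⁻¹)⁻¹) * x₂ := by rw [hvi]
        _ = t * ((x₂ * u⁻¹)⁻¹ * x₂) := by group
        _ = t * u := by rw [← hu']

/-- membership in `W = C_T(Z 3)`. -/
theorem mem_W_iff {t : T} :
    t ∈ Subgroup.centralizer ((Subgroup.upperCentralSeries T 3 : Subgroup T) : Set T) ↔
      cg t x₂ = 1 ∧ cg t x₃ = 1 := by
  constructor
  · intro h
    rw [Subgroup.mem_centralizer_iff] at h
    exact ⟨cg_eq_one_iff.mpr (h x₂ (D.le23 D.m2)).symm, cg_eq_one_iff.mpr (h x₃ D.m3).symm⟩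
  · rintro ⟨h2, h3⟩
    have hA := D.mem_A_iff.mpr h2
    rw [Subgroup.mem_centralizer_iff] at hA ⊢
    rw [cg_eq_one_iff] at h3
    intro u hu
    by_cases hu2 : u ∈ Subgroup.upperCentralSeries T 2
    · exact hA u hu2
    · have hv : x₃ * u⁻¹ ∈ Subgroup.upperCentralSeries T 2 := D.all3 x₃ D.m3 u hu D.n3 hu2
      have hv' : t * (x₃ * u⁻¹) = (x₃ * u⁻¹) * t := (hA _ hv).symm
      have hu' : u = (x₃ * u⁻¹)⁻¹ * x₃ := by group
      have hvi : t * (x₃ * u⁻¹)⁻¹ = (x₃ * u⁻¹)⁻¹ * t := by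
        calc t * (x₃ * u⁻¹)⁻¹ = (x₃ * u⁻¹)⁻¹ * ((x₃ * u⁻¹) * t) * (x₃ * u⁻¹)⁻¹ := by group
          _ = (x₃ * u⁻¹)⁻¹ * (t * (x₃ * u⁻¹)) * (x₃ * u⁻¹)⁻¹ := by rw [hv']
          _ = (x₃ * u⁻¹)⁻¹ * t := by group
      calc u * t = (x₃ * u⁻¹)⁻¹ * x₃ * t := by rw [← hu']
        _ = (x₃ * u⁻¹)⁻¹ * (x₃ * t) := by group
        _ = (x₃ * u⁻¹)⁻¹ * (t * x₃) := by rw [h3]
        _ = ((x₃ * u⁻¹)⁻¹ * t) * x₃ := by group
        _ = (t * (x₃ * u⁻¹)⁻¹) * x₃ := by rw [hvi]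
        _ = t * ((x₃ * u⁻¹)⁻¹ * x₃) := by group
        _ = t * u := by rw [← hu']

theorem A_comm {a u : T}
    (ha : a ∈ Subgroup.centralizer ((Subgroup.upperCentralSeries T 2 : Subgroup T) : Set T))
    (hu : u ∈ Subgroup.upperCentralSeries T 2) : a * u = u * a :=
  ((Subgroup.mem_centralizer_iff.mp ha) u hu).symm

theorem cg3_mul {a : T}
    (ha : a ∈ Subgroup.centralizer ((Subgroup.upperCentralSeries T 2 : Subgroup T) : Set T))
    (b : T) : cg (a * b) x₃ = cg a x₃ * cg b x₃ :=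
  cg_mul (D.A_comm ha (D.cg3_mem b))

theorem cg3_inv {a : T}
    (ha : a ∈ Subgroup.centralizer ((Subgroup.upperCentralSeries T 2 : Subgroup T) : Set T)) :
    cg a⁻¹ x₃ = (cg a x₃)⁻¹ :=
  cg_inv (D.A_comm ha (D.cg3_mem a))

/-- the separating map `t ↦ (cg t x₂, cg t x₃)`. -/
noncomputable def sepMap (t : T) :
    ↥(Subgroup.upperCentralSeries T 1) × ↥(Subgroup.upperCentralSeries T 2) :=
  (⟨cg t x₂, D.cg2_mem t⟩, ⟨cg t x₃, D.cg3_mem t⟩)

theorem sepMap_sep (s t : T) (h : D.sepMap s = D.sepMap t) :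
    s⁻¹ * t ∈ Subgroup.centralizer ((Subgroup.upperCentralSeries T 3 : Subgroup T) : Set T) := by
  have h2 : cg s x₂ = cg t x₂ := congrArg (fun p => (p.1 : T)) h
  have h3 : cg s x₃ = cg t x₃ := congrArg (fun p => (p.2 : T)) h
  exact D.mem_W_iff.mpr ⟨cg_inv_mul_eq_one h2, cg_inv_mul_eq_one h3⟩

end Gens

end Cfsg.Agent.Lib.Helper57.RUW
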