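import Mathlib
import Cfsg.Agent.Lib.Helper49.RUW.Defs
import Cfsg.Agent.Lib.Helper57.RUW.Basic

/-!
# Project RUW: package [TOWER]
-/

set_option autoImplicit false

namespace Cfsg.Agent.Lib.Helper57.RUW

open Cfsg.Agent.Lib.Helper49.RUW

universe u

variable {T : Type u} [Group T]

namespace Gens

variable {x₁ x₂ x₃ : T} (D : Gens T x₁ x₂ x₃)
include D

/-- `X₁ = {a ∈ A | cg a x₃ ∈ Z 1}`. -/
def X1 : Subgroup T where
  carrier := {a | a ∈ Subgroup.centralizer ((Subgroup.upperCentralSeries T 2 : Subgroup T) : Set T)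
    ∧ cg a x₃ ∈ Subgroup.upperCentralSeries T 1}
  one_mem' := ⟨Subgroup.one_mem _, by rw [cg_one_left]; exact Subgroup.one_mem _⟩
  mul_mem' := by
    rintro a b ⟨ha, ha'⟩ ⟨hb, hb'⟩
    refine ⟨Subgroup.mul_mem _ ha hb, ?_⟩
    rw [D.cg3_mul ha b]
    exact Subgroup.mul_mem _ ha' hb'
  inv_mem' := by
    rintro a ⟨ha, ha'⟩
    refine ⟨Subgroup.inv_mem _ ha, ?_⟩
    rw [D.cg3_inv ha]
    exact Subgroup.inv_mem _ ha'

theorem mem_X1 {a : T} : a ∈ D.X1 ↔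
    a ∈ Subgroup.centralizer ((Subgroup.upperCentralSeries T 2 : Subgroup T) : Set T)
      ∧ cg a x₃ ∈ Subgroup.upperCentralSeries T 1 := Iff.rfl

theorem W_le_A :
    Subgroup.centralizer ((Subgroup.upperCentralSeries T 3 : Subgroup T) : Set T) ≤
      Subgroup.centralizer ((Subgroup.upperCentralSeries T 2 : Subgroup T) : Set T) :=
  Subgroup.centralizer_le D.le23

theorem X1_normal : D.X1.Normal := by
  constructor
  intro a ha t
  obtain ⟨haA, ha1⟩ := ha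
  have hAn : (Subgroup.centralizer
      ((Subgroup.upperCentralSeries T 2 : Subgroup T) : Set T)).Normal := inferInstance
  refine ⟨hAn.conj_mem a haA t, ?_⟩
  -- `cg (t a t⁻¹) x₃ = cg a x₃`
  have hc : ∀ s : T, s * cg a x₃ = cg a x₃ * s := fun s => D.central1 ha1 s
  set c := cg a x₃ with hcdef
  set v := cg t⁻¹ x₃ with hvdef
  have hv : v ∈ Subgroup.upperCentralSeries T 2 := D.cg3_mem t⁻¹
  have h1 : t⁻¹ * x₃ * t = x₃ * v := by
    have := conj_eq_mul_cg t⁻¹ x₃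
    rwa [inv_inv] at this
  have h2 : a * x₃ * a⁻¹ = x₃ * c := conj_eq_mul_cg a x₃
  have h3 : a * v = v * a := D.A_comm haA hv
  have h4 : t * a * t⁻¹ * x₃ * (t * a * t⁻¹)⁻¹ = x₃ * c := by
    calc t * a * t⁻¹ * x₃ * (t * a * t⁻¹)⁻¹ = t * a * (t⁻¹ * x₃ * t) * a⁻¹ * t⁻¹ := by group
      _ = t * a * (x₃ * v) * a⁻¹ * t⁻¹ := by rw [h1]
      _ = t * (a * x₃ * a⁻¹) * (a * v) * a⁻¹ * t⁻¹ := by group
      _ = t * (x₃ * c) * (v * a) * a⁻¹ * t⁻¹ := by rw [h2, h3]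
      _ = t * x₃ * (c * v) * t⁻¹ := by group
      _ = t * x₃ * (v * c) * t⁻¹ := by rw [hc v]
      _ = t * (x₃ * v) * (c * t⁻¹) := by group
      _ = t * (t⁻¹ * x₃ * t) * (t⁻¹ * c) := by rw [h1, ← hc t⁻¹]
      _ = x₃ * c := by group
  have h5 : cg (t * a * t⁻¹) x₃ = c := by
    have : cg (t * a * t⁻¹) x₃ = x₃⁻¹ * (t * a * t⁻¹ * x₃ * (t * a * t⁻¹)⁻¹) := rfl
    rw [this, h4]; group
  rw [h5]; exact ha1

/-- `W` has "index at most two" in `X₁`. -/
theorem I2_W_X1 : ∀ a ∈ D.X1, ∀ b ∈ D.X1,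
    a ∉ Subgroup.centralizer ((Subgroup.upperCentralSeries T 3 : Subgroup T) : Set T) →
    b ∉ Subgroup.centralizer ((Subgroup.upperCentralSeries T 3 : Subgroup T) : Set T) →
    a * b⁻¹ ∈ Subgroup.centralizer ((Subgroup.upperCentralSeries T 3 : Subgroup T) : Set T) := by
  rintro a ⟨haA, ha1⟩ b ⟨hbA, hb1⟩ haW hbW
  have ha3 : cg a x₃ = x₁ := by
    rcases D.all1 _ ha1 with h | h
    · exact absurd (D.mem_W_iff.mpr ⟨D.mem_A_iff.mp haA, h⟩) haW
    · exact h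
  have hb3 : cg b x₃ = x₁ := by
    rcases D.all1 _ hb1 with h | h
    · exact absurd (D.mem_W_iff.mpr ⟨D.mem_A_iff.mp hbA, h⟩) hbW
    · exact h
  apply D.mem_W_iff.mpr
  refine ⟨D.mem_A_iff.mp (Subgroup.mul_mem _ haA (Subgroup.inv_mem _ hbA)), ?_⟩
  rw [D.cg3_mul haA, D.cg3_inv hbA, ha3, hb3, mul_inv_cancel]

/-- `X₁` has "index at most two" in `A`. -/
theorem I2_X1_A :
    ∀ a ∈ Subgroup.centralizer ((Subgroup.upperCentralSeries T 2 : Subgroup T) : Set T),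
    ∀ b ∈ Subgroup.centralizer ((Subgroup.upperCentralSeries T 2 : Subgroup T) : Set T),
    a ∉ D.X1 → b ∉ D.X1 → a * b⁻¹ ∈ D.X1 := by
  intro a haA b hbA haX hbX
  have ha3 : cg a x₃ ∉ Subgroup.upperCentralSeries T 1 := fun h => haX ⟨haA, h⟩
  have hb3 : cg b x₃ ∉ Subgroup.upperCentralSeries T 1 := fun h => hbX ⟨hbA, h⟩
  refine ⟨Subgroup.mul_mem _ haA (Subgroup.inv_mem _ hbA), ?_⟩
  rw [D.cg3_mul haA, D.cg3_inv hbA]
  exact D.all2 _ (D.cg3_mem a) _ (D.cg3_mem b) ha3 hb3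

/-- `A` has "index at most two" in `T`. -/
theorem I2_A_top : ∀ a ∈ (⊤ : Subgroup T), ∀ b ∈ (⊤ : Subgroup T),
    a ∉ Subgroup.centralizer ((Subgroup.upperCentralSeries T 2 : Subgroup T) : Set T) →
    b ∉ Subgroup.centralizer ((Subgroup.upperCentralSeries T 2 : Subgroup T) : Set T) →
    a * b⁻¹ ∈ Subgroup.centralizer ((Subgroup.upperCentralSeries T 2 : Subgroup T) : Set T) := by
  intro a _ b _ haA hbA
  have ha2 : cg a x₂ = x₁ := by
    rcases D.all1 _ (D.cg2_mem a) with h | h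
    · exact absurd (D.mem_A_iff.mpr h) haA
    · exact h
  have hb2 : cg b x₂ = x₁ := by
    rcases D.all1 _ (D.cg2_mem b) with h | h
    · exact absurd (D.mem_A_iff.mpr h) hbA
    · exact h
  apply D.mem_A_iff.mpr
  rw [D.cg2_mul, D.cg2_inv, ha2, hb2, mul_inv_cancel]

end Gens

/-- **[TOWER]** -/
theorem pkgTower : PkgTower.{u} := by
  intro T _ _ _ c1 c2 c3
  obtain ⟨x₁, x₂, x₃, D⟩ := exists_gens c1 c2 c3
  obtain ⟨g₁, hg1, hsq1, hcov1⟩ := rep_of_I2 D.I2_W_X1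
  obtain ⟨g₂, hg2, hsq2, hcov2⟩ := rep_of_I2 D.I2_X1_A
  obtain ⟨g₃, -, hsq3, hcov3⟩ := rep_of_I2 D.I2_A_top
  refine ⟨D.X1, g₁, g₂, g₃, ?_, ?_, ?_, ?_⟩
  · exact
      { W1 := fun w hw => ⟨D.W_le_A hw, by
          rw [(D.mem_W_iff.mp hw).2]; exact Subgroup.one_mem _⟩
        X12 := fun a ha => ha.1
        Wn := inferInstance
        n1 := D.X1_normal
        n2 := inferInstance
        g1 := hg1
        g2 := hg2
        sq1 := hsq1
        sq2 := hsq2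
        sq3 := hsq3
        cov1 := hcov1
        cov2 := hcov2
        cov3 := fun t => hcov3 t (Subgroup.mem_top t) }
  · intro a ha b hb
    apply D.mem_W_iff.mpr
    have hab : a * b * a⁻¹ * b⁻¹ ∈ Subgroup.centralizer
        ((Subgroup.upperCentralSeries T 2 : Subgroup T) : Set T) :=
      Subgroup.mul_mem _ (Subgroup.mul_mem _ (Subgroup.mul_mem _ ha hb) (Subgroup.inv_mem _ ha))
        (Subgroup.inv_mem _ hb)
    refine ⟨D.mem_A_iff.mp hab, ?_⟩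
    rw [D.cg3_mul (Subgroup.mul_mem _ (Subgroup.mul_mem _ ha hb) (Subgroup.inv_mem _ ha)),
      D.cg3_mul (Subgroup.mul_mem _ ha hb), D.cg3_mul ha, D.cg3_inv ha, D.cg3_inv hb]
    have hc := D.comm2 _ (D.cg3_mem a) _ (D.cg3_mem b)
    rw [hc]; group
  · intro hexp a ha
    apply D.mem_W_iff.mpr
    refine ⟨D.mem_A_iff.mp (Subgroup.mul_mem _ ha ha), ?_⟩
    rw [D.cg3_mul ha]
    exact hexp _ (D.cg3_mem a)
  · have h := index_le_of_sep
      (Subgroup.centralizer ((Subgroup.upperCentralSeries T 3 : Subgroup T) : Set T))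
      D.sepMap D.sepMap_sep
    rw [Nat.card_prod, c1, c2] at h
    exact h

end Cfsg.Agent.Lib.Helper57.RUW
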